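import Cfsg.Agent.H331.KW.RowsCl
import Cfsg.Agent.S0144
import Cfsg.Agent.H146.KW.Iface

/-!
# S4243: `PSU_4(2)` and `PSp_6(2)`  (helper334)
-/

set_option autoImplicit false
set_option linter.unusedSectionVars false

namespace Cfsg.Agent.H334.KW.Small

open Cfsg Cfsg.Agent.H331.KW Cfsg.Agent.H331.KW.RowsCl Cfsg.Agent.H146.KW

universe u

variable {K : Type u} [Group K] [Finite K] [IsSimpleGroup K]

/-- all primes of `|K|` but `2`, `3` occur to the first power -/
theorem false_of_small (h2 : ∀ l : ℕ, l.Prime → 3 < l → ¬ l ^ 2 ∣ Nat.card K) (H : Subgroup K) (hs : IsSimpleGroup H)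
    (hc : ¬ IsMulCommutative H) (hne : H ≠ ⊤) (hP : PSubAll H) : False := by
  have h3 : ∀ l : ℕ, l.Prime → l ∣ Nat.card H → l = 2 ∨ l = 3 := by
    intro l hl hd
    by_contra hcon
    have : Fact l.Prime := ⟨hl⟩
    have h4 := hl.two_le
    exact hne ((hP l).eq_top_of_not_sq_dvd hd (h2 l hl (by omega)))
  have hn : Nat.card H ≠ 0 := Nat.card_pos.ne'
  have h5 : Nat.card H = 2 ^ (Nat.card H).factorization 2 * 3 ^ (Nat.card H).factorization 3 := by
    conv_lhs => rw [← Nat.prod_factorization_pow_eq_self hn]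
    rw [Finsupp.prod_of_support_subset _ (s := {2, 3})]
    · rw [Finset.prod_insert (by decide), Finset.prod_singleton]
    · intro l hl
      rw [Nat.support_factorization, Nat.mem_primeFactors] at hl
      rcases h3 l hl.1 hl.2.1 with rfl | rfl <;> simp
    · intro l _
      exact pow_zero l
  have h6 : Group.IsSolvable H := S0144.result 2 3 _ _ Nat.prime_two Nat.prime_three h5
  exact hc ⟨⟨IsSimpleGroup.comm_iff_isSolvable.2 h6⟩⟩

theorem card_psu42 {F : Type*} [Field F] [Fintype F] (hF : Fintype.card F = 2 ^ 2) : Nat.card (PSU 4 F 2) = 25920 := by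
  have h := S0280.result hF 4 (by norm_num)
  rw [show Nat.gcd 4 (2 + 1) = 1 by norm_num, Finset.prod_range_succ, Finset.prod_range_succ, Finset.prod_range_succ,
    Finset.prod_range_succ, Finset.prod_range_zero, if_pos (by decide), if_neg (by decide), if_pos (by decide),
    if_neg (by decide)] at h
  norm_num at h
  omega

theorem card_psp62 {F : Type*} [Field F] [Fintype F] (hF : Fintype.card F = 2) : Nat.card (PSp 3 F) = 1451520 := by
  have h := Cfsg.Agent.H62.PCFam.card_psp hF (m := 3) (by norm_num)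
  rw [show Nat.gcd 2 (2 - 1) = 1 by norm_num, Finset.prod_range_succ, Finset.prod_range_succ, Finset.prod_range_succ,
    Finset.prod_range_zero] at h
  norm_num at h
  exact h

/-- **`PSU_4(2)`** -/
theorem false_psu42 {F : Type*} [Field F] [Fintype F] (hF : Fintype.card F = 2 ^ 2) [IsSimpleGroup (PSU 4 F 2)]
    (H : Subgroup (PSU 4 F 2)) (hs : IsSimpleGroup H) (hc : ¬ IsMulCommutative H) (hne : H ≠ ⊤) (hP : PSubAll H) :
    False := by
  have : Finite (PSU 4 F 2) := Quotient.finite _
  refine false_of_small (fun l hl h3 hd => ?_) H hs hc hne hP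
  rw [card_psu42 hF] at hd
  have h1 : l ∣ 2 ^ 6 * 3 ^ 4 * 5 := (dvd_pow_self l two_ne_zero).trans hd
  have h2 : l = 5 := by
    rcases (Nat.Prime.dvd_mul hl).1 h1 with h | h
    · rcases (Nat.Prime.dvd_mul hl).1 h with h | h
      · have := Nat.le_of_dvd (by norm_num) (hl.dvd_of_dvd_pow h); omega
      · have := Nat.le_of_dvd (by norm_num) (hl.dvd_of_dvd_pow h); omega
    · exact (Nat.prime_dvd_prime_iff_eq hl (by norm_num)).1 h
  subst h2
  omega

/-- **`PSp_6(2)`** -/
theorem false_psp62 {F : Type*} [Field F] [Fintype F] (hF : Fintype.card F = 2) [IsSimpleGroup (PSp 3 F)]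
    (H : Subgroup (PSp 3 F)) (hs : IsSimpleGroup H) (hc : ¬ IsMulCommutative H) (hne : H ≠ ⊤) (hP : PSubAll H) :
    False := by
  have : Finite (PSp 3 F) := Quotient.finite _
  refine false_of_small (fun l hl h3 hd => ?_) H hs hc hne hP
  rw [card_psp62 hF] at hd
  have h1 : l ∣ 2 ^ 9 * 3 ^ 4 * 5 * 7 := (dvd_pow_self l two_ne_zero).trans hd
  have h2 : l = 5 ∨ l = 7 := by
    rcases (Nat.Prime.dvd_mul hl).1 h1 with h | h
    · rcases (Nat.Prime.dvd_mul hl).1 h with h | h
      · rcases (Nat.Prime.dvd_mul hl).1 h with h | h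
        · have := Nat.le_of_dvd (by norm_num) (hl.dvd_of_dvd_pow h); omega
        · have := Nat.le_of_dvd (by norm_num) (hl.dvd_of_dvd_pow h); omega
      · exact Or.inl ((Nat.prime_dvd_prime_iff_eq hl (by norm_num)).1 h)
    · exact Or.inr ((Nat.prime_dvd_prime_iff_eq hl (by norm_num)).1 h)
  rcases h2 with rfl | rfl <;> omega

/-- own characteristic forms -/
theorem own_psu42 {F : Type*} [Field F] [Fintype F] (hF : Fintype.card F = 2 ^ 2) [IsSimpleGroup (PSU 4 F 2)] (p : ℕ) :
    OwnNo p (PSU 4 F 2) := fun H hs hc hne hP _ => false_psu42 hF H hs hc hne hP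

theorem own_psp62 {F : Type*} [Field F] [Fintype F] (hF : Fintype.card F = 2) [IsSimpleGroup (PSp 3 F)] (p : ℕ) :
    OwnNo p (PSp 3 F) := fun H hs hc hne hP _ => false_psp62 hF H hs hc hne hP

/-- row forms -/
theorem noKW_psu42 {F : Type*} [Field F] [Fintype F] (hF : Fintype.card F = 2 ^ 2) [IsSimpleGroup (PSU 4 F 2)] :
    NoKW (PSU 4 F 2) := fun H hs hc hne hP _ => false_psu42 hF H hs hc hne hP

theorem noKW_psp62 {F : Type*} [Field F] [Fintype F] (hF : Fintype.card F = 2) [IsSimpleGroup (PSp 3 F)] :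
    NoKW (PSp 3 F) := fun H hs hc hne hP _ => false_psp62 hF H hs hc hne hP

end Cfsg.Agent.H334.KW.Small
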